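import Cfsg.Agent.H381.OQ.Faith

/-!
# S4884, own odd characteristic: faithful action on the 2-elements of the torus, the general form (helper69)

As `H381.OQ.twFaithful_of`, but the nodes outside of `S` (with `A k i` even for all `k`) need no torus element.
-/

set_option autoImplicit false

namespace Cfsg.Agent.H69.OQ

open CoxeterSystem Cfsg.Agent.ChevalleyStructure.CoxeterGeom Cfsg.Agent.Tits.Roots Cfsg.Agent.Nodes.Reps
  Cfsg.Agent.Nodes.BNOf Cfsg.Agent.Nodes.Bruhat Cfsg.Agent.H684.OQ Cfsg.Agent.H381.OQ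

section weyl

variable {I W : Type*} [Fintype I] [DecidableEq I] [Group W] {M : CoxeterMatrix I}
  (cs : CoxeterSystem M W) {A : I → I → ℤ} (h : IsCartan M A)

omit [Group W] in
theorem pairing_sr' (i j : I) : pairing A i (sr j) = A i j := by
  unfold pairing
  rw [Finset.sum_eq_single j]
  · rw [sr_self, mul_one]
  · intro b _ hb
    rw [sr_ne hb, mul_zero]
  · intro hk; exact absurd (Finset.mem_univ j) hk

/-- a vector whose pairings with the nodes of `S` are even: `u y - y` has only even pairings -/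
theorem even_pairing_rep_sub {S : Set I} (hS : ∀ i ∉ S, ∀ k, Even (A k i)) {y : I → ℤ}
    (hy : ∀ j ∈ S, Even (pairing A j y)) (u : W) : ∀ j, Even (pairing A j (rep cs h u y - y)) := by
  obtain ⟨ω, rfl⟩ := cs.wordProd_surjective u
  induction ω with
  | nil =>
    intro j
    rw [wordProd_nil, map_one, Module.End.one_apply, sub_self]
    exact even_pairing_of_mem (zero_mem (EE I 1)) j
  | cons i ω ih =>
    intro j
    rw [wordProd_cons, rep_mul_apply, rep_simple, refl_apply]
    set z := rep cs h (cs.wordProd ω) y with hz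
    have e : z - Pi.single i (pairing A i z) - y = (z - y) + (-(pairing A i z)) • (sr i : I → ℤ) := by
      have h1 : (Pi.single i (pairing A i z) : I → ℤ) = (pairing A i z) • (sr i : I → ℤ) := by
        rw [sr, ← Pi.single_smul, smul_eq_mul, mul_one]
      rw [h1, neg_smul]
      abel
    rw [e, pairing_add, pairing_smul]
    refine (ih j).add ?_
    by_cases hi : i ∈ S
    · refine Even.mul_right (Even.neg ?_) _
      have e1 : z = (z - y) + y := by abel
      rw [e1, pairing_add]
      exact (ih i).add (hy i hi)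
    · refine Even.mul_left ?_ _
      rw [pairing_sr']
      exact hS i hi j

/-- **`w` of odd order respecting the parities of the pairings of the nodes of `S` is trivial** -/
theorem eq_one_of_pairing' {w : W} (hw : Odd (orderOf w)) {S : Set I} (hS : ∀ i ∉ S, ∀ k, Even (A k i))
    (hp : ∀ j ∈ S, ∀ i ∈ S, (Even (pairing A j (rep cs h w (sr i))) ↔ Even (pairing A j (sr i)))) : w = 1 := by
  have h1 : ∀ j ∈ S, ∀ v : I → ℤ, Even (pairing A j (rep cs h w v - v)) := by
    intro j hj v
    have hv : v = ∑ i, v i • (sr i : I → ℤ) := by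
      funext k
      rw [Finset.sum_apply, Finset.sum_eq_single k]
      · rw [Pi.smul_apply, sr_self, smul_eq_mul, mul_one]
      · intro b _ hb
        rw [Pi.smul_apply, sr_ne hb.symm, smul_zero]
      · intro hk; exact absurd (Finset.mem_univ k) hk
    let L : (I → ℤ) →+ ℤ := ⟨⟨pairing A j, by simp [pairing]⟩, pairing_add A j⟩
    have hL : ∀ x, L x = pairing A j x := fun _ => rfl
    have h2 : rep cs h w v - v = ∑ i, v i • (rep cs h w (sr i) - sr i) := by
      conv_lhs => rw [hv]
      rw [map_sum, ← Finset.sum_sub_distrib]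
      refine Finset.sum_congr rfl fun i _ => ?_
      rw [map_smul, smul_sub]
    rw [h2, ← hL, map_sum]
    refine Finset.even_sum _ fun i _ => ?_
    rw [hL, pairing_smul]
    refine Even.mul_left ?_ _
    by_cases hi : i ∈ S
    · have h3 := hp j hj i hi
      rw [← hL, map_sub, Int.even_sub, hL, hL]
      exact h3
    · refine even_pairing_rep_sub cs h hS (y := sr i) (fun k _ => ?_) w j
      rw [pairing_sr']
      exact hS i hi k
  have h2 : ∀ j, ∀ v : I → ℤ, Even (pairing A j (rep cs h (w ^ 2) v - v)) := by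
    intro j v
    set y := rep cs h w v - v with hy
    have h3 := even_pairing_rep_sub cs h hS (y := y) (fun j hj => h1 j hj v) w j
    have e : rep cs h (w ^ 2) v - v = (rep cs h w y - y) + (2 : ℤ) • y := by
      rw [pow_two, rep_mul_apply, hy, map_sub, two_smul]
      abel
    rw [e, pairing_add, pairing_smul]
    exact h3.add (even_two_mul _)
  have hodd : Odd (orderOf (w ^ 2)) := hw.of_dvd_nat (orderOf_pow_dvd 2)
  have h3 : w ^ 2 = 1 := by
    refine eq_one_of_pairing cs h hodd fun j x _ => ?_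
    have h4 := h2 j x
    let L : (I → ℤ) →+ ℤ := ⟨⟨pairing A j, by simp [pairing]⟩, pairing_add A j⟩
    have hL : ∀ x, L x = pairing A j x := fun _ => rfl
    rw [← hL, map_sub, Int.even_sub, hL, hL] at h4
    exact h4
  have h5 : orderOf w ∣ 2 := orderOf_dvd_of_pow_eq_one h3
  rcases (Nat.dvd_prime Nat.prime_two).1 h5 with h6 | h6
  · exact orderOf_eq_one_iff.1 h6
  · rw [h6] at hw
    exact absurd hw (by decide)

end weyl

universe u

variable {I W : Type*} {Y : Type u} [Fintype I] [DecidableEq I] [Group W] [Group Y] {M : CoxeterMatrix I}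
  {cs : CoxeterSystem M W} {A : I → I → ℤ} {h : IsCartan M A} {p : ℕ} {T : Subgroup Y} {n : I → Y}
  {X : (I → ℤ) → Subgroup Y}

/-- **`TWFaithful`**, general form -/
theorem twFaithful_gen (R : RGD cs h p T n X) {S : Set I} (hS : ∀ i ∉ S, ∀ k, Even (A k i)) (t : I → Y)
    (htT : ∀ j ∈ S, t j ∈ T) (ht2 : ∀ j ∈ S, ∃ k : ℕ, t j ^ 2 ^ k = 1)
    (htc : ∀ j ∈ S, ∀ i ∈ S, ∀ u : W, ((∀ y ∈ X (rep cs h u (sr i)), t j * y = y * t j) ↔
      Even (pairing A j (rep cs h u (sr i))))) :
    TWFaithful cs T n R.nsys := by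
  intro w g hg hodd hc
  refine eq_one_of_pairing' cs h hodd hS ?_
  intro j hj i hi
  have hx : IsRoot cs h (sr i) := isRoot_sr cs h i
  have htc1 := htc j hj i hi 1
  rw [map_one, Module.End.one_apply] at htc1
  rw [← htc j hj i hi w, ← htc1, ← R.conj_rp hg hx]
  have hgt : g * t j = t j * g := hc (t j) (htT j hj) (ht2 j hj)
  have h3 : g⁻¹ * t j = t j * g⁻¹ := by
    calc g⁻¹ * t j = g⁻¹ * (t j * g) * g⁻¹ := by group
      _ = g⁻¹ * (g * t j) * g⁻¹ := by rw [hgt]
      _ = t j * g⁻¹ := by group
  constructor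
  · intro h1 y hy
    have h2 := h1 (g * y * g⁻¹) ⟨y, hy, rfl⟩
    have e1 : t j * (g * y * g⁻¹) = g * (t j * y) * g⁻¹ := by
      calc t j * (g * y * g⁻¹) = (t j * g) * y * g⁻¹ := by group
        _ = (g * t j) * y * g⁻¹ := by rw [hgt]
        _ = g * (t j * y) * g⁻¹ := by group
    have e2 : g * y * g⁻¹ * t j = g * (y * t j) * g⁻¹ := by
      calc g * y * g⁻¹ * t j = g * y * (g⁻¹ * t j) := by group
        _ = g * y * (t j * g⁻¹) := by rw [h3]
        _ = g * (y * t j) * g⁻¹ := by group
    rw [e1, e2] at h2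
    exact mul_left_cancel (mul_right_cancel h2)
  · rintro h1 _ ⟨y, hy, rfl⟩
    show t j * (g * y * g⁻¹) = g * y * g⁻¹ * t j
    calc t j * (g * y * g⁻¹) = (t j * g) * y * g⁻¹ := by group
      _ = (g * t j) * y * g⁻¹ := by rw [hgt]
      _ = g * (t j * y) * g⁻¹ := by group
      _ = g * (y * t j) * g⁻¹ := by rw [h1 y hy]
      _ = g * y * (t j * g⁻¹) := by group
      _ = g * y * (g⁻¹ * t j) := by rw [h3]
      _ = g * y * g⁻¹ * t j := by group

end Cfsg.Agent.H69.OQ
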