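import Cfsg.Agent.H69.OQ.Witt
import Cfsg.Agent.Nodes.RGDTypeA
import Cfsg.Agent.Nodes.WittInst

/-!
# S4884, `r` odd: `NoFix` and central quotients; the types `A_n` (`PSL_{n+1}`, `n ≥ 2`) and `D_n` (helper69)
-/

set_option autoImplicit false
set_option linter.unusedSectionVars false

namespace Cfsg.Agent.H69.OQ

open CoxeterSystem Cfsg.Agent.ChevalleyStructure.CoxeterGeom Cfsg.Agent.Tits.Roots
open Cfsg.Agent.Nodes.Reps Cfsg.Agent.Nodes.BNOf

section Map

variable {I W Y Y' : Type*} [Fintype I] [DecidableEq I] [Group W] [Group Y] [Group Y'] {M : CoxeterMatrix I}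
  {cs : CoxeterSystem M W} {A : I → I → ℤ} {h : IsCartan M A} {T : Subgroup Y} {X : (I → ℤ) → Subgroup Y}

/-- `NoFix` passes to central quotients -/
theorem NoFix.map (hN : NoFix cs h T X) (htor : ∀ x, IsRoot cs h x → ∀ t ∈ T, cj t (X x) = X x) (f : Y →* Y')
    (hker : f.ker ≤ Subgroup.center Y) : NoFix cs h (T.map f) (fun x => (X x).map f) := by
  rintro x hx _ ⟨u, hu, rfl⟩ hcomm
  have hcen : ∀ z ∈ X x, f z = 1 → z = 1 := by
    intro z hz hz1
    refine hN x hx z hz fun t _ _ => ?_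
    exact (Subgroup.mem_center_iff.1 (hker (MonoidHom.mem_ker.2 hz1)) t)
  have h1 : u = 1 := by
    refine hN x hx u hu fun t ht ⟨k, hk⟩ => ?_
    have h2 := hcomm (f t) (Subgroup.mem_map_of_mem f ht) ⟨k, by rw [← map_pow, hk, map_one]⟩
    have h3 : t * u * t⁻¹ ∈ X x := by
      rw [← htor x hx t ht]
      exact conj_mem_cj.2 hu
    have h4 : t * u * t⁻¹ * u⁻¹ = 1 := by
      refine hcen _ (mul_mem h3 (inv_mem hu)) ?_
      rw [map_mul, map_mul, map_mul, map_inv, map_inv, h2, mul_inv_cancel_right, mul_inv_cancel]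
    rw [mul_inv_eq_one, mul_inv_eq_iff_eq_mul] at h4
    exact h4
  rw [h1, map_one]

/-- `NoFix` and isomorphisms -/
theorem NoFix.of_equiv (hN : NoFix cs h T X) (e : Y ≃* Y') :
    NoFix cs h (T.map e.toMonoidHom) (fun x => (X x).map e.toMonoidHom) := by
  rintro x hx _ ⟨u, hu, rfl⟩ hcomm
  have h1 : u = 1 := by
    refine hN x hx u hu fun t ht ⟨k, hk⟩ => ?_
    have h2 := hcomm (e t) (Subgroup.mem_map_of_mem e.toMonoidHom ht) ⟨k, by rw [← map_pow, hk, map_one]⟩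
    apply e.injective
    rw [map_mul, map_mul]
    exact h2
  rw [h1, map_one]

/-- `NoFix` restricts to a subgroup, with its own `2`-elements -/
theorem NoFix.restrict (K : Subgroup Y) (hN : ∀ x, IsRoot cs h x → ∀ u ∈ X x,
      (∀ t ∈ T, t ∈ K → (∃ k : ℕ, t ^ 2 ^ k = 1) → t * u = u * t) → u = 1) :
    NoFix cs h (T.subgroupOf K) (fun x => (X x).subgroupOf K) := by
  rintro x hx ⟨u, huK⟩ hu hcomm
  refine Subtype.ext (hN x hx u hu fun t ht htK ⟨k, hk⟩ => ?_)
  exact congrArg Subtype.val (hcomm ⟨t, htK⟩ ht ⟨k, Subtype.ext hk⟩)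

end Map

/-! ### Type `A` -/

section TypeA

open Matrix Cfsg.Agent.Nodes.RGDTypeA Cfsg.Agent.Nodes.RootsA
open Cfsg.Agent.LieRecognition.BNCox (cA)
open Cfsg.Agent.LieClassical.SLGen
open Cfsg.Agent.TitsThree.KSideA (tv tv_of_ne tv_add tv_zero tv_neg tv_comm tv_commute diag2n_eq)

variable {n : ℕ} {F : Type*} [Field F] {W : Type*} [Group W] (cs : CoxeterSystem (cA n) W) {A : Fin n → Fin n → ℤ}
  (h : IsCartan (cA n) A)

/-- `SL_{n+1}(F)`, `n ≥ 2`, odd characteristic -/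
theorem nofix_sl (hn : 2 ≤ n) (h2 : (2 : F) ≠ 0) :
    NoFix cs h (T (Fin (n + 1)) F) (X F) := by
  intro x hx u hu hcomm
  obtain ⟨a, b, hab, rfl⟩ := exists_of_isRoot cs h hx
  rw [X_rtA hab] at hu
  obtain ⟨s, rfl⟩ := hu
  obtain ⟨c, hca, hcb⟩ : ∃ c : Fin (n + 1), c ≠ a ∧ c ≠ b := by
    obtain ⟨j, hj⟩ : ∃ j : Fin (n + 1), j ∉ ({a, b} : Finset (Fin (n + 1))) := by
      by_contra hcon
      push Not at hcon
      have h3 : (Finset.univ : Finset (Fin (n + 1))) ⊆ {a, b} := fun j _ => hcon j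
      have h4 := Finset.card_le_card h3
      have h5 : ({a, b} : Finset (Fin (n + 1))).card ≤ 2 := Finset.card_le_two
      rw [Finset.card_univ, Fintype.card_fin] at h4
      omega
    rw [Finset.mem_insert, Finset.mem_singleton, not_or] at hj
    exact ⟨j, hj.1, hj.2⟩
  have h1 : (1 : F) ≠ 0 := one_ne_zero
  set g : SpecialLinearGroup (Fin (n + 1)) F := nn a c 1 * nn a c 1 with hg
  have hm : Mono 1 g := by
    have h3 := (mono_nn (F := F) hca.symm h1).mul (mono_nn hca.symm h1)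
    rwa [Equiv.swap_mul_self] at h3
  have hact : ∀ (v : Fin (n + 1) → F) (l : Fin (n + 1)), (g • v) l = if l = a ∨ l = c then - v l else v l := by
    intro v l
    rw [hg, mul_smul]
    simp only [nn_smul hca.symm h1]
    by_cases hla : l = a
    · subst hla
      simp [hca]
    · by_cases hlc : l = c
      · subst hlc
        simp [hca]
      · simp [hla, hlc]
  have haa : g.1 a a = -1 := by rw [apply_eq_smul, hact]; simp
  have hbb : g.1 b b = 1 := by rw [apply_eq_smul, hact]; simp [hab.symm, hcb.symm]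
  have hg2 : g ^ 2 ^ 1 = 1 := by
    apply Subtype.ext
    ext i j
    rw [apply_eq_smul, pow_one, sq, mul_smul, hact, hact]
    rw [apply_eq_smul, one_smul]
    split_ifs <;> simp
  have h3 := hcomm g hm ⟨1, hg2⟩
  have h4 := hm.conj_tv hab s
  rw [h3, mul_inv_cancel_right] at h4
  have h5 := tv_inj (by simpa using hab) h4
  simp only [Equiv.Perm.coe_one, id_eq] at h5
  rw [haa, hbb] at h5
  have h6 : (2 : F) * s = 0 := by
    have : s + s = 0 := by nth_rewrite 2 [h5]; simp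
    rw [two_mul]; exact this
  have h7 : s = 0 := (mul_eq_zero.1 h6).resolve_left h2
  rw [h7]
  exact tv_zero a b

/-- **`PSL_{n+1}(F)`, `n ≥ 2`, odd characteristic** -/
theorem nofix_psl [Finite W] [Finite F] {p : ℕ} [Fact p.Prime] [CharP F p] (hn : 2 ≤ n) (h2 : (2 : F) ≠ 0) :
    NoFix cs h ((T (Fin (n + 1)) F).map (pr n F)) (fun x => (X F x).map (pr n F)) :=
  (nofix_sl cs h hn h2).map (fun x hx t ht => (rgd cs h (p := p)).tor x hx t ht) (pr n F) ker_pr.le

end TypeA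

/-! ### Type `D` -/

section TypeD

open Cfsg.Agent.Nodes.TypeD
open Cfsg.Agent.Nodes Cfsg.Agent.Nodes.WittRGD
open Cfsg.Agent.TitsThree.Siegel Cfsg.Agent.TitsThree.WittFrame Cfsg.Agent.TitsThree.WittWeyl
open Cfsg.Agent.Nodes.WittRoot (Amb Mono XG)

variable {F : Type*} [Field F] {V : Type*} [AddCommGroup V] [Module F V] {H : HForm F V} {n : ℕ}
  {Fr : Frame H (Fin (n + 2))} {G0 : Subgroup (V ≃ₗ[F] V)} {W : Type*} [Group W] (cs : CoxeterSystem (M n) W)

/-- Witt frames of type `D_{n+2}`, `n + 2 ≥ 3`, odd characteristic -/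
theorem nofix_D (hA : Amb Fr G0) (hn : 1 ≤ n) (h2 : (2 : F) ≠ 0) :
    NoFix cs (isCartan n) ((Tor Fr G0).subgroupOf G0) (fun x => (WittRGDD.rg Fr x).subgroupOf G0) := by
  refine NoFix.restrict G0 fun x hx u hu hcomm => ?_
  obtain ⟨a, b, hab, e⟩ := exists_of_isRoot cs hx
  have hab' : a.1 ≠ b.1 := hab
  rw [WittRGDD.rg_eq Fr hab e] at hu
  obtain ⟨s, rfl⟩ := hu
  obtain ⟨c, hac, hbc⟩ : ∃ c : Fin (n + 2) × Bool, a.1 ≠ c.1 ∧ b.1 ≠ c.1 := by
    obtain ⟨j, hj⟩ : ∃ j : Fin (n + 2), j ∉ ({a.1, b.1} : Finset (Fin (n + 2))) := by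
      by_contra hcon
      push Not at hcon
      have h3 : (Finset.univ : Finset (Fin (n + 2))) ⊆ {a.1, b.1} := fun j _ => hcon j
      have h4 := Finset.card_le_card h3
      have h5 : ({a.1, b.1} : Finset (Fin (n + 2))).card ≤ 2 := Finset.card_le_two
      rw [Finset.card_univ, Fintype.card_fin] at h4
      omega
    rw [Finset.mem_insert, Finset.mem_singleton, not_or] at hj
    exact ⟨(j, true), fun h => hj.1 h.symm, fun h => hj.2 h.symm⟩
  have h1 : (-1 : F) ≠ 0 := neg_ne_zero.2 one_ne_zero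
  have hp : (-1 : F) ^ 2 ^ 1 = 1 := by norm_num
  have hmem : hX Fr a c (-1) ∈ G0 :=
    mul_mem (mul_mem (mul_mem (hA.X_mem _ _ _) (hA.X_mem _ _ _)) (hA.X_mem _ _ _))
      (mul_mem (mul_mem (hA.X_mem _ _ _) (hA.X_mem _ _ _)) (hA.X_mem _ _ _))
  have h3 := hcomm (hX Fr a c (-1)) ⟨hmem, mono_hX Fr hac h1⟩ hmem ⟨1, hX_pow Fr hac h1 hA hp⟩
  have h4 := conj_X Fr (hA.iso _ hmem) hab' hab' (hX_a Fr hac h1)
    (m := 1) (y' := b) (by rw [hX_ne Fr hac hab'.symm hbc, one_smul]) s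
  rw [h3, mul_inv_cancel_right] at h4
  have h5 := congrArg (fun g : V ≃ₗ[F] V => g (Fr.b (neg b))) h4
  simp only [X_apply_neg Fr hab'] at h5
  have h6 := add_left_cancel h5
  have h7 : s = -1 * H.σ 1 * (Fr.η b)⁻¹ * Fr.η b * s := by
    by_contra hne
    have h8 : (s - -1 * H.σ 1 * (Fr.η b)⁻¹ * Fr.η b * s) • Fr.b a = 0 := by
      rw [sub_smul, ← h6, sub_self]
    exact b_ne_zero a ((smul_eq_zero.1 h8).resolve_left (sub_ne_zero.2 hne))
  rw [inv_mul_cancel_right₀ (Fr.η_ne b), map_one, mul_one, neg_one_mul] at h7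
  have h8 : (2 : F) * s = 0 := by
    rw [two_mul]
    nth_rewrite 1 [h7]
    exact neg_add_cancel s
  have h9 : s = 0 := (mul_eq_zero.1 h8).resolve_left h2
  rw [h9]
  exact Fr.X_zero a b

end TypeD

end Cfsg.Agent.H69.OQ
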