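import Cfsg.Agent.H69.OQ.Map
import Cfsg.Agent.Mrg.Omega.ML.Ex.Typ.List

/-!
# S4884, own characteristic, `r` odd: the classical rows of `NoFix` (helper69)

`HasNF p M G` : `G` has a root group datum of characteristic `p` and type `M` whose torus `T` satisfies `NoFix`
(no nontrivial element of a root group commutes with `O_2(T)`).

* `nf_psl` : `PSL_{n+1}(F)`, `n ≥ 2`; `nf_psp` : `PSp_{2m}(F)`, `m ≥ 2`, `|F| % 4 = 1`; `nf_psu` : `PSU_N(q)`, `N ≥ 4`;
* `nf_podd`, `nf_pminus` (`m ≥ 3`), `nf_pplus`; the terms `T`, `n`, `X` are the ones of `Typ.List`.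
-/

set_option autoImplicit false
set_option linter.unusedSectionVars false

namespace Cfsg.Agent.H69.OQ

open Cfsg
open CoxeterSystem Cfsg.Agent.ChevalleyStructure.CoxeterGeom Cfsg.Agent.Tits.Roots Cfsg.Agent.Tits.Core
  Cfsg.Agent.Nodes.Comb Cfsg.Agent.Nodes.Reps Cfsg.Agent.Nodes.BNOf
  Cfsg.Agent.Nodes.RGDLib Cfsg.Agent.LieRecognition.BNCox

/-- `G` has a root group datum of characteristic `p` and type `M` with `NoFix` -/
def HasNF (p : ℕ) {l : ℕ} (M : CoxeterMatrix (Fin l)) (G : Type*) [Group G] : Prop :=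
  ∃ (A : Fin l → Fin l → ℤ) (h : IsCartan M A) (T : Subgroup G) (n : Fin l → G) (X : (Fin l → ℤ) → Subgroup G),
    Finite M.Group ∧ RGD M.toCoxeterSystem h p T n X ∧ G1 M.toCoxeterSystem h X = ⊤ ∧
      NoFix M.toCoxeterSystem h T X

theorem HasNF.of_equiv {p l : ℕ} {M : CoxeterMatrix (Fin l)} {G H : Type*} [Group G] [Group H] (e : G ≃* H)
    (hG : HasNF p M G) : HasNF p M H := by
  obtain ⟨A, h, T, n, X, hW, R, hX, hN⟩ := hG
  refine ⟨A, h, T.map e.toMonoidHom, fun i => e (n i), fun x => (X x).map e.toMonoidHom, hW,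
    rgd_map_of_injective R e.toMonoidHom e.injective, ?_, hN.of_equiv e⟩
  have h1 : (G1 M.toCoxeterSystem h X).map e.toMonoidHom =
      G1 M.toCoxeterSystem h (fun x => (X x).map e.toMonoidHom) := by
    unfold G1 RGD.Sup
    rw [Subgroup.map_iSup]
  rw [← h1, hX, Subgroup.map_top_of_surjective _ e.surjective]

/-- `PSL_{n+1}(F)`, `n ≥ 2`, odd characteristic -/
theorem nf_psl {F : Type*} [Field F] [Finite F] {n : ℕ} (hn : 2 ≤ n) (h2 : (2 : F) ≠ 0) {p : ℕ} [Fact p.Prime]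
    [CharP F p] : HasNF p (cA n) (Matrix.ProjectiveSpecialLinearGroup (Fin (n + 1)) F) :=
  have : Finite (cA n).Group := Nodes.RootsA.finite_W (cA n).toCoxeterSystem (Nodes.RootsA.isCartan n)
  ⟨Nodes.RootsA.AA n, Nodes.RootsA.isCartan n, _, _, _, this, Nodes.RGDTypeA.rgd_psl _ _,
    Nodes.RGDTypeA.G1_psl_eq_top _ _, nofix_psl (p := p) _ _ hn h2⟩

section TypeC

open Cfsg.Agent.Nodes Cfsg.Agent.Nodes.WittAll Cfsg.Agent.Nodes.WittU Cfsg.Agent.Nodes.WittInst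
  Cfsg.Agent.TitsThree.Siegel Cfsg.Agent.TitsThree.SiegelGen
  Cfsg.Agent.TitsThree.WittFrame Cfsg.Agent.TitsThree.WBridge Cfsg.Agent.TitsThree.WittWeyl
  Cfsg.Agent.TitsThree.FrameCN Cfsg.Agent.TitsThree Cfsg.Agent.Nodes.WittRoot

variable {F : Type*} [Field F] {V : Type*} [AddCommGroup V] [Module F V] {H : HForm F V}

theorem nf_C {n : ℕ} {Fr : Frame H (Fin n)} {K : Type*} [Group K] (M : Model Fr K) {p : ℕ}
    (hA : AmbT Fr p M.I) [Finite V] [Fact p.Prime] [CharP F p] {p0 : Fr.Adm} (hp0 : p0.c ≠ 0)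
    (hn : 0 < n) (hN : NoFix (CoxeterMatrix.B n).toCoxeterSystem (Nodes.TypeC.isCartan n) (WittModel.T M)
      (WittModel.X M)) : HasNF p (CoxeterMatrix.B n) K :=
  ⟨Nodes.TypeC.A n, Nodes.TypeC.isCartan n, _, _, _, Nodes.TypeC.finite_W (CoxeterMatrix.B n).toCoxeterSystem,
    rgdC_model M hA hp0 _, WittModel.G1_eq_top _ hn _, hN⟩

/-- a `2`-element with `t ^ (q + 1) ≠ 1` in the field with `q ^ 2` elements -/
theorem exists_two_elt [Fintype F] {q : ℕ} (hF : Fintype.card F = q ^ 2) (hq : Odd q) :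
    ∃ (t : F) (k : ℕ), t ^ 2 ^ k = 1 ∧ t * t ^ q ≠ 1 := by
  classical
  have hq1 : 1 < q := by
    by_contra hcon
    have h1 := Fintype.one_lt_card (α := F)
    rw [hF] at h1
    have h2 : q = 0 ∨ q = 1 := by omega
    rcases h2 with rfl | rfl <;> norm_num at h1
  obtain ⟨g, hg⟩ := IsCyclic.exists_generator (α := Fˣ)
  have hord : orderOf g = q ^ 2 - 1 := by
    rw [orderOf_eq_card_of_forall_mem_zpowers hg, Nat.card_eq_fintype_card, Fintype.card_units, hF]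
  have hpos : q ^ 2 - 1 ≠ 0 := by
    have : 1 < q ^ 2 := Nat.one_lt_pow (by norm_num) hq1
    omega
  obtain ⟨k, m, hm, hkm⟩ := Nat.exists_eq_two_pow_mul_odd hpos
  refine ⟨((g ^ m : Fˣ) : F), k, ?_, ?_⟩
  · have h1 : (g ^ m) ^ 2 ^ k = 1 := by
      rw [← pow_mul, mul_comm, ← hkm, ← hord]
      exact pow_orderOf_eq_one g
    rw [← Units.val_pow_eq_pow_val, h1, Units.val_one]
  · intro h1
    have h2 : (g ^ m) ^ (q + 1) = 1 := by
      apply Units.ext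
      rw [Units.val_pow_eq_pow_val, pow_succ', h1, Units.val_one]
    rw [← pow_mul] at h2
    have h3 := orderOf_dvd_of_pow_eq_one h2
    rw [hord, hkm, mul_comm m] at h3
    have h4 : 2 ^ k ∣ q + 1 := Nat.dvd_of_mul_dvd_mul_right hm.pos h3
    -- `q ^ 2 - 1 = (q - 1) (q + 1)` has a larger `2`-part
    have h5 : q ^ 2 - 1 = (q - 1) * (q + 1) := by
      obtain ⟨s, rfl⟩ : ∃ s, q = s + 1 := ⟨q - 1, by omega⟩
      have : (s + 1) ^ 2 = (s + 1 - 1) * (s + 1 + 1) + 1 := by rw [Nat.add_sub_cancel]; ring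
      rw [this]
      rfl
    have h6 : 2 * 2 ^ k ∣ q ^ 2 - 1 := by
      rw [h5]
      exact mul_dvd_mul (by obtain ⟨s, rfl⟩ := hq; exact ⟨s, by omega⟩) h4
    rw [hkm, mul_comm 2, Nat.mul_dvd_mul_iff_left (by positivity)] at h6
    obtain ⟨s, hs⟩ := hm
    omega

/-- `PSp_{2m}(F)`, `m ≥ 2`, `|F| ≡ 1 mod 4` -/
theorem nf_psp {F : Type*} [Field F] [Fintype F] {m : ℕ} (hm : 2 ≤ m) (h4 : Fintype.card F % 4 = 1) {p : ℕ}
    [Fact p.Prime] [CharP F p] : HasNF p (CoxeterMatrix.B m) (PSp m F) := by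
  refine nf_C (KInstSp.model m F) (AmbT.of_amb amb_Sp p) (p0 := SpIdent.adm 1) one_ne_zero (by omega) ?_
  obtain ⟨i, hi⟩ := FiniteField.isSquare_neg_one_iff.2 (show Fintype.card F % 4 ≠ 3 by omega)
  have h2 : (2 : F) ≠ 0 := by
    intro h0
    have h3 : ringChar F = 2 := by
      have h5 : ringChar F ∣ 2 := (ringChar.spec F 2).1 (by exact_mod_cast h0)
      rcases (Nat.dvd_prime Nat.prime_two).1 h5 with h6 | h6
      · exact absurd h6 (CharP.ringChar_ne_one)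
      · exact h6
    have h5 := FiniteField.even_card_of_char_two h3
    omega
  have h11 : (-1 : F) ≠ 1 := by
    intro h
    apply h2
    have : (1 : F) + 1 = 0 := by nth_rewrite 1 [← h]; ring
    rw [← this]; norm_num
  refine nofix_tt (KInstSp.model m F) _ amb_Sp hm (t := i) (k := 2) ?_ ?_
  · have : i ^ 2 ^ 2 = (i * i) * (i * i) := by ring
    rw [this, ← hi]
    ring
  · change i * i ≠ 1
    rw [← hi]
    exact h11

/-- `PSU_N(q)`, `N ≥ 4`, `q` odd -/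
theorem nf_psu {F : Type*} [Field F] [Fintype F] {q N : ℕ} (hF : Fintype.card F = q ^ 2) (hq : Odd q) (hN : 4 ≤ N)
    {p : ℕ} [Fact p.Prime] [CharP F p] : ∃ m, (N = 2 * m ∨ N = 2 * m + 1) ∧ HasNF p (CoxeterMatrix.B m) (PSU N F q) := by
  obtain ⟨m, hm⟩ : ∃ m, N = 2 * m ∨ N = 2 * m + 1 := ⟨N / 2, by omega⟩
  obtain ⟨W, -⟩ := exists_wframe hF hm
  obtain ⟨p0, hp0, -⟩ := exists_adm hF W
  refine ⟨m, hm, nf_C (KInstU.model hF (by omega) W) (AmbT.of_amb (amb_U hF W) p) hp0 (by omega) ?_⟩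
  obtain ⟨t, k, ht, htq⟩ := exists_two_elt hF hq
  exact nofix_tt (KInstU.model hF (by omega) W) _ (amb_U hF W) (by omega) ht htq

end TypeC

section Orthogonal

open QuadraticMap
open Cfsg.Agent.LieClassical Cfsg.Agent.LieClassical.OrthCore Cfsg.Agent.LieClassical.OrthTrans
open Cfsg.Agent.LieClassical.OrthSimple Cfsg.Agent.LieClassical.OrthFinite
open Cfsg.Agent.LieClassical.OrthForms
open Cfsg.Agent.TitsThree.KSideO Cfsg.Agent.TitsThree.StdData
open Cfsg.Agent.Nodes Cfsg.Agent.Nodes.WittAll Cfsg.Agent.Nodes.WittU Cfsg.Agent.Nodes.WittInst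
  Cfsg.Agent.TitsThree.Siegel Cfsg.Agent.TitsThree.SiegelGen
  Cfsg.Agent.TitsThree.WittFrame Cfsg.Agent.TitsThree.WBridge Cfsg.Agent.TitsThree.WittWeyl
  Cfsg.Agent.TitsThree.FrameCN

variable {F : Type*} [Field F] {m : ℕ}

/-- `PΩ_{2m+1}(F)`, `m ≥ 3` -/
theorem nf_podd [Finite F] (h2 : (2 : F) ≠ 0) (hm : 3 ≤ m) {p : ℕ} [Fact p.Prime] [CharP F p] :
    HasNF p (CoxeterMatrix.B m) (Cfsg.POmega F (Cfsg.quadFormOdd m F)) := by
  rw [← coe_oddForm]
  have hG : Cfsg.Agent.LieClassical.OrthTrans.Good (oddForm m F) := by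
    apply good_of_finite (nondeg_oddForm m F h2)
    rw [Module.finrank_fintype_fun_eq_card, Fintype.card_sum, Fintype.card_sum, Fintype.card_fin,
      Fintype.card_unit]
    omega
  have hp : ((embOdd m F).ngt ⟨1, -1 ^ 2, rfl⟩).c ≠ 0 := by
    change (1 : F)⁻¹ * (-1 ^ 2) ≠ 0
    simp
  have hA := amb_O_of_two (wodd m F) h2
  exact nf_C (model (wodd m F) hG ⟨_, hp⟩) (AmbT.of_amb hA p) hp (by omega)
    (nofix_orth _ _ hA hm h2 (fun _ => rfl) rfl)

/-- `PΩ⁻_{2m+2}(F)`, `m ≥ 3` -/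
theorem nf_pminus [Finite F] {a b : F} (hab : ∀ z₁ z₂ : F, z₁ ^ 2 + a * z₁ * z₂ + b * z₂ ^ 2 = 0 → z₁ = 0 ∧ z₂ = 0)
    (h2 : (2 : F) ≠ 0) (hm : 3 ≤ m) {p : ℕ} [Fact p.Prime] [CharP F p] :
    HasNF p (CoxeterMatrix.B m) (Cfsg.POmega F (Cfsg.quadFormMinus m F a b)) := by
  rw [← coe_minusForm]
  have hG : Good (minusForm m F a b) := by
    apply good_of_finite (nondeg_minusForm m F a b hab)
    rw [Module.finrank_fintype_fun_eq_card, Fintype.card_sum, Fintype.card_sum, Fintype.card_fin,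
      Fintype.card_fin]
    omega
  have hp : ((embMinus m F a b hab).ngt ⟨(1, 0), -nf a b (1, 0), rfl⟩).c ≠ 0 := by
    change (1 : F)⁻¹ * (-nf a b (1, 0)) ≠ 0
    simp [nf]
  have hA := amb_O_of_two (wminus m F a b hab) h2
  exact nf_C (model (wminus m F a b hab) hG ⟨_, hp⟩) (AmbT.of_amb hA p) hp (by omega)
    (nofix_orth _ _ hA hm h2 (fun _ => rfl) rfl)

/-- `PΩ⁺_{2(n+3)}(F)` -/
theorem nf_pplus [Finite F] (n : ℕ) (h2 : (2 : F) ≠ 0) {p : ℕ} [Fact p.Prime] [CharP F p] :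
    HasNF p (Nodes.TypeD.M (n + 1)) (Cfsg.POmega F (Cfsg.quadFormPlus (n + 3) F)) := by
  rw [← coe_plusForm]
  have hG : Good (plusForm (n + 3) F) := by
    apply good_of_finite (nondeg_plusForm (n + 3) F)
    rw [Module.finrank_fintype_fun_eq_card, Fintype.card_sum, Fintype.card_fin]
    omega
  have hA := amb_plus (F := F) (n + 3)
  have hfin : Finite ((Fin (n + 3) ⊕ Fin (n + 3) → F) ≃ₗ[F] (Fin (n + 3) ⊕ Fin (n + 3) → F)) :=
    Finite.of_injective (fun g : (Fin (n + 3) ⊕ Fin (n + 3) → F) ≃ₗ[F] (Fin (n + 3) ⊕ Fin (n + 3) → F) =>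
      (g : (Fin (n + 3) ⊕ Fin (n + 3) → F) → (Fin (n + 3) ⊕ Fin (n + 3) → F))) DFunLike.coe_injective
  exact ⟨Nodes.TypeD.A (n + 1), Nodes.TypeD.isCartan (n + 1), _, _, _,
    Nodes.TypeD.finite_W (Nodes.TypeD.M (n + 1)).toCoxeterSystem,
    rgdD_model (wplus (n + 3) F) hG (amb_plus _) (adm_plus _) _,
    G1D_eq_top (wplus (n + 3) F) (toPOmega hG) (toPOmega_surjective hG) (adm_plus _) _,
    (nofix_D _ hA (by omega) h2).map (fun x hx t ht =>
      (rgd_restrict (rgdD hA (adm_plus _) (p := p) (Nodes.TypeD.M (n + 1)).toCoxeterSystem) (E (plusForm (n + 3) F))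
        (fun x _ => rgD_le (wplus (n + 3) F) hA x) (fun i => WittRGDD.nn_mem hA i)).tor x hx t ht)
      (toPOmega hG) (ker_toPOmega hG)⟩

end Orthogonal

end Cfsg.Agent.H69.OQ
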