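import Cfsg.Agent.H69.OQ.Rows

/-!
# S4884, `r` odd: `NoFix` for `PSU_3(q)` (helper69)

* `exists_torus` : the torus elements `diag(l, (σ l)⁻¹; l ^ q / l on V0)` of a unitary Witt frame with `V0 = ⟨d⟩`;
* **`nf_psu3`**, `nf_psu_all` (`N ≥ 3`).
-/

set_option autoImplicit false
set_option linter.unusedSectionVars false

namespace Cfsg.Agent.H69.OQ

open Cfsg Cfsg.Agent.LieClassical.HermBasic Cfsg.Agent.LieClassical.HermGen
  Cfsg.Agent.LieClassical.HermSiegel
open CoxeterSystem Cfsg.Agent.ChevalleyStructure.CoxeterGeom Cfsg.Agent.Tits.Roots Cfsg.Agent.Nodes.TypeC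
open Cfsg.Agent.Nodes.Comb Cfsg.Agent.Nodes.Reps Cfsg.Agent.Nodes.WittRoot Cfsg.Agent.Nodes.BNOf
open Cfsg.Agent.Nodes.WittRGD Cfsg.Agent.Nodes.RGDLib
open Cfsg.Agent.Nodes Cfsg.Agent.Nodes.WittU Cfsg.Agent.Nodes.WittAll
open Cfsg.Agent.TitsThree Cfsg.Agent.TitsThree.Siegel Cfsg.Agent.TitsThree.SiegelGen
  Cfsg.Agent.TitsThree.WittFrame Cfsg.Agent.TitsThree.WBridge Cfsg.Agent.TitsThree.WittWeyl
  Cfsg.Agent.TitsThree.FrameCN Cfsg.Agent.TitsThree.KSideU Cfsg.Agent.TitsThree.KSideUDesc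

variable {F : Type*} [Field F] [Fintype F] {q N : ℕ} (hF : Fintype.card F = q ^ 2) {m : ℕ}

/-- **torus elements of the odd dimensional unitary groups** -/
theorem exists_torus (W : WFrame (PU hF N) m) {d : Fin N → F} (hd : hermForm N F q d d = 1)
    (hV0 : W.V0 = Submodule.span F {d}) (a : Fin m × Bool) {l : F} (hl : l ≠ 0) :
    ∃ g : (Fin N → F) ≃ₗ[F] (Fin N → F), g ∈ IU F q N ∧
      g ((toFrame W).b a) = l • (toFrame W).b a ∧
      g ((toFrame W).b (WittFrame.neg a)) = (l ^ q)⁻¹ • (toFrame W).b (WittFrame.neg a) ∧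
      (∀ z : Fin m × Bool, z.1 ≠ a.1 → g ((toFrame W).b z) = (toFrame W).b z) ∧
      ∀ v ∈ W.V0, g v = (l ^ q / l) • v := by
  obtain ⟨p, hp0, hpw⟩ := exists_adm hF W
  have hlq : l ^ q ≠ 0 := pow_ne_zero _ hl
  have hpc : p.c ^ q = -p.c := by
    have h1 := p.ok.2
    rw [ok_iff, hpw, herm_zero_left, neg_zero] at h1
    exact eq_neg_of_add_eq_zero_right h1
  set c' : F := l * p.c ^ q with hc'
  have hpq : p.c ^ q ≠ 0 := pow_ne_zero _ hp0
  have hc0 : c' ≠ 0 := mul_ne_zero hl hpq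
  have hcq : c' ^ q = l ^ q * p.c := by
    rw [hc', mul_pow, pow_q_pow_q hF]
  obtain ⟨x, hx⟩ := exists_norm_eq hF (c := -(c' + c' ^ q)) (by
    rw [neg_pow_q hF, add_pow_q hF, pow_q_pow_q hF, add_comm])
  have hok : (toFrame W).ok (x • d) c' := by
    refine ⟨?_, ?_⟩
    · rw [hV0]
      exact Submodule.smul_mem _ _ (Submodule.mem_span_singleton_self d)
    · rw [ok_iff, herm_smul_left, herm_smul_right, hd, mul_one, hx, _root_.neg_neg]
  let p' : (toFrame W).Adm := ⟨x • d, c', hok⟩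
  have hη := (toFrame W).η_ne a
  refine ⟨nZ (toFrame W) a p' * nZ (toFrame W) a p, ?_, ?_, ?_, ?_, ?_⟩
  · exact mul_mem (nZ_mem (amb_U hF W) _ _) (nZ_mem (amb_U hF W) _ _)
  · rw [mul_apply', nZ_apply_self (toFrame W) a p hp0, map_smul, nZ_apply_neg (toFrame W) a p' hc0, smul_smul]
    congr 1
    change (1 : F) * ((toFrame W).η a)⁻¹ * (p.c ^ q)⁻¹ * ((toFrame W).η a * c') = l
    rw [hc']
    field_simp
  · rw [mul_apply', nZ_apply_neg (toFrame W) a p hp0, map_smul, nZ_apply_self (toFrame W) a p' hc0, smul_smul]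
    congr 1
    change ((toFrame W).η a * p.c) * ((1 : F) * ((toFrame W).η a)⁻¹ * (c' ^ q)⁻¹) = (l ^ q)⁻¹
    rw [hcq]
    field_simp
  · intro z hz
    rw [mul_apply', nZ_apply_of_ne (toFrame W) hz, nZ_apply_of_ne (toFrame W) hz]
  · intro v hv
    rw [mul_apply', nZ_apply_V0 (toFrame W) a p hp0 hv, hpw, smul_zero, add_zero,
      nZ_apply_V0 (toFrame W) a p' hc0 hv]
    rw [hV0] at hv
    obtain ⟨y, rfl⟩ := Submodule.mem_span_singleton.1 hv
    change y • d + ((1 : F)⁻¹ * c'⁻¹ * hermForm N F q (y • d) (x • d)) • x • d = (l ^ q / l) • y • d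
    rw [herm_smul_left, herm_smul_right, hd, smul_smul, smul_smul, ← add_smul]
    congr 1
    have h1 : x * x ^ q = -(c' + c' ^ q) := hx
    have h2 : (1 : F)⁻¹ * c'⁻¹ * (y * (x ^ q * 1)) * x = c'⁻¹ * y * (x * x ^ q) := by ring
    rw [h2, h1, hcq]
    have h3 : c' = -(l * p.c) := by rw [hc', hpc]; ring
    rw [h3]
    field_simp
    ring

/-- **`PSU_3(q)`, `q` odd** -/
theorem nofix_psu3 (hq : Odd q) (W : WFrame (PU hF 3) 1) {d : Fin 3 → F} (hd : hermForm 3 F q d d = 1)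
    (hV0 : W.V0 = Submodule.span F {d}) {G : Type*} [Group G] (cs : CoxeterSystem (CoxeterMatrix.B 1) G) :
    NoFix cs (isCartan 1) (WittModel.T (KInstU.model hF le_rfl W)) (WittModel.X (KInstU.model hF le_rfl W)) := by
  obtain ⟨t, k, ht, htq⟩ := exists_two_elt hF hq
  have ht0 : t ≠ 0 := by
    rintro rfl
    rw [zero_pow (by positivity)] at ht
    exact zero_ne_one ht
  have ht1 : t ≠ 1 := by
    rintro rfl
    rw [one_pow, one_mul] at htq
    exact htq rfl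
  have hone : ∀ i j : Fin 1, i = j := fun i j => Subsingleton.elim i j
  have hA := amb_U hF W
  refine nofix_of (KInstU.model hF le_rfl W) cs hA (fun a b hab => absurd (hone _ _) hab) (fun a p hp => ?_)
  obtain ⟨g, hg, h1, h2, -, h4⟩ := exists_torus hF W hd hV0 a ht0
  have hm : Mono (toFrame W) g id := by
    intro z
    rcases eq_or_ng (hone z.1 a.1) with rfl | rfl
    · exact ⟨t, ht0, h1⟩
    · exact ⟨(t ^ q)⁻¹, inv_ne_zero (pow_ne_zero _ ht0), h2⟩
  have key : ∀ (v : Fin 3 → F) (l : F), g v = l • v → ∀ j : ℕ, (g ^ j) v = l ^ j • v := by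
    intro v l hl j
    induction j with
    | zero => rw [pow_zero, pow_zero, one_smul]; rfl
    | succ j ih => rw [pow_succ, mul_apply', hl, map_smul, ih, smul_smul, pow_succ, mul_comm]
  have hpow : g ^ 2 ^ k = 1 := by
    refine Cfsg.Agent.Nodes.WittRGD.Amb.eq_one_of_fix hA (fun z => ?_) (fun w hw => ?_)
    · rcases eq_or_ng (hone z.1 a.1) with rfl | rfl
      · rw [key _ _ h1, ht, one_smul]
      · rw [key ((toFrame W).b (ng a)) _ h2, inv_pow, ← pow_mul, mul_comm q, pow_mul, ht, one_pow, inv_one, one_smul]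
    · rw [key _ _ (h4 w hw), div_pow, ← pow_mul, mul_comm q, pow_mul, ht, one_pow, div_one, one_smul]
  obtain ⟨r, hr, hr'⟩ := hA.exists_adm hg hm (ρ := id) (fun _ => rfl) p
  refine ⟨g, t, r, hg, hm, ⟨k, hpow⟩, h1, hr, hr', ?_⟩
  intro h5
  have hw := congrArg Frame.Adm.w h5
  have hc := congrArg Frame.Adm.c h5
  rw [Frame.Adm.smul_w, ← hr, h4 _ p.ok.1] at hw
  rw [Frame.Adm.smul_c, ← hr', (HU hF 3).σσ] at hc
  change t ^ q • (t ^ q / t) • p.w = p.w at hw
  change t ^ q * t * p.c = p.c at hc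
  apply hp
  have hw0 : p.w = 0 := by
    rw [smul_smul] at hw
    have h6 : (t ^ q * (t ^ q / t) - 1) • p.w = 0 := by rw [sub_smul, hw, one_smul, sub_self]
    refine (smul_eq_zero.1 h6).resolve_left fun h7 => ?_
    have h8 : t ^ q * (t ^ q / t) = 1 := sub_eq_zero.1 h7
    have h9 : t ^ (2 * q) = t := by
      field_simp at h8
      rw [mul_comm 2, pow_mul]
      exact h8
    have hq1 : 1 ≤ 2 * q := by
      obtain ⟨s, rfl⟩ := hq
      omega
    have h10 : t ^ (2 * q - 1) = 1 := by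
      apply mul_right_cancel₀ ht0
      rw [← pow_succ, Nat.sub_add_cancel hq1, h9, one_mul]
    have h11 := orderOf_dvd_of_pow_eq_one h10
    have h12 := orderOf_dvd_of_pow_eq_one ht
    have h13 : Nat.Coprime (2 ^ k) (2 * q - 1) := by
      apply Nat.Coprime.pow_left
      rw [Nat.coprime_two_left]
      exact ⟨q - 1, by omega⟩
    have h14 := Nat.eq_one_of_dvd_coprimes h13 h12 h11
    exact ht1 (orderOf_eq_one_iff.1 h14)
  have hc0 : p.c = 0 := by
    by_contra h3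
    have h6 : t ^ q * t = 1 := mul_right_cancel₀ h3 (hc.trans (one_mul _).symm)
    exact htq (by rw [mul_comm]; exact h6)
  exact Frame.Adm.ext hw0 hc0

include hF in
/-- `PSU_3(q)`, `q` odd -/
theorem nf_psu3 (hq : Odd q) {p : ℕ} [Fact p.Prime] [CharP F p] : HasNF p (CoxeterMatrix.B 1) (PSU 3 F q) := by
  obtain ⟨W, d, hd, hV0⟩ := exists_wframe_odd (N := 3) hF (m := 1) rfl
  obtain ⟨p0, hp0, -⟩ := exists_adm hF W
  exact nf_C (KInstU.model hF le_rfl W) (AmbT.of_amb (amb_U hF W) p) hp0 (by omega) (nofix_psu3 hF hq W hd hV0 _)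

include hF in
/-- `PSU_N(q)`, `N ≥ 3`, `q` odd -/
theorem nf_psu_all (hq : Odd q) (hN : 3 ≤ N) {p : ℕ} [Fact p.Prime] [CharP F p] :
    ∃ m, (N = 2 * m ∨ N = 2 * m + 1) ∧ HasNF p (CoxeterMatrix.B m) (PSU N F q) := by
  rcases Nat.lt_or_ge 3 N with h | h
  · exact nf_psu hF hq h
  · obtain rfl : N = 3 := by omega
    exact ⟨1, Or.inr rfl, nf_psu3 hF hq⟩

end Cfsg.Agent.H69.OQ
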